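import Cfsg.Agent.Lib.Compute.Schur2.Pres

/-!
# Isomorphisms from relators

Two finite groups generated by elements satisfying the relators of a table of the right order are isomorphic, the
generators going to the generators: the subgroup of the product generated by the pairs has the order of the table.
-/

set_option autoImplicit false

namespace Cfsg.Agent.Lib.Compute.Schur2

open Cfsg Cfsg.Agent.Lib.Compute.SchurLin
open Cfsg.Agent.Lib.Compute.ToddCoxeterCore (wordEl wordEl_nil wordEl_cons wordEl_append)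

theorem wordEl_ltr_congr {X : Type*} [Group X] {n : ℕ} {f g : ℕ → X} (h : ∀ j, j < n → f j = g j) (w : List ℕ)
    (hw : ∀ x ∈ w, x < 2 * n) : wordEl (ltr f) w = wordEl (ltr g) w := by
  induction w with
  | nil => rfl
  | cons x u ih =>
    rw [wordEl_cons, wordEl_cons, ih (fun y hy => hw y (by simp [hy]))]
    congr 1
    have hx := hw x (by simp)
    have h2 : x / 2 < n := by omega
    unfold ltr
    rw [h _ h2]

/-- **The isomorphism.** -/
theorem exists_equiv_of_relators {c : TC} {D : ℕ} (hf : TC.Sound.{0} c) (hSB : SubBound.{0} c D)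
    {A B : Type} [Group A] [Group B] [Finite A] [Finite B] {ga : ℕ → A} {gb : ℕ → B}
    (hra : ∀ k < c.nrel, wordEl (ltr ga) (c.W.getD k []) = 1)
    (hrb : ∀ k < c.nrel, wordEl (ltr gb) (c.W.getD k []) = 1)
    (hga : ∀ x : A, x ∈ Subgroup.closure (ga '' Set.Iio c.n))
    (hgb : ∀ x : B, x ∈ Subgroup.closure (gb '' Set.Iio c.n))
    (hcardA : Nat.card A = c.N * D)
    (hB : Nat.card B = c.N * D ∨ (IsSimpleGroup A ∧ Nontrivial B)) :
    ∃ κ : B ≃* A, ∀ j, j < c.n → κ (gb j) = ga j := by
  classical
  let S : Set (A × B) := (fun j => (ga j, gb j)) '' Set.Iio c.n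
  let X : Subgroup (A × B) := Subgroup.closure S
  let el : ℕ → X := fun j => if h : j < c.n then ⟨(ga j, gb j), Subgroup.subset_closure ⟨j, h, rfl⟩⟩ else 1
  have hel : ∀ j, j < c.n → ((el j : X) : A × B) = (ga j, gb j) := by
    intro j hj
    simp only [el, dif_pos hj]
  let p1 : X →* A := (MonoidHom.fst A B).comp X.subtype
  let p2 : X →* B := (MonoidHom.snd A B).comp X.subtype
  have hp1 : ∀ j, j < c.n → p1 (el j) = ga j := fun j hj => by
    show ((el j : X) : A × B).1 = _
    rw [hel j hj]
  have hp2 : ∀ j, j < c.n → p2 (el j) = gb j := fun j hj => by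
    show ((el j : X) : A × B).2 = _
    rw [hel j hj]
  have hW : ∀ k, ∀ x ∈ c.W.getD k [], x < 2 * c.n := hf.hW
  have hrelX : ∀ k < c.nrel, wordEl (ltr el) (c.W.getD k []) = 1 := by
    intro k hk
    have h1 : p1 (wordEl (ltr el) (c.W.getD k [])) = 1 := by
      rw [map_wordEl_ltr p1 el, wordEl_ltr_congr (n := c.n) (g := ga) hp1 _ (hW k)]
      exact hra k hk
    have h2 : p2 (wordEl (ltr el) (c.W.getD k [])) = 1 := by
      rw [map_wordEl_ltr p2 el, wordEl_ltr_congr (n := c.n) (g := gb) hp2 _ (hW k)]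
      exact hrb k hk
    apply Subtype.ext
    exact Prod.ext h1 h2
  have hgenX : ∀ x : X, x ∈ Subgroup.closure (el '' Set.Iio c.n) := by
    have h1 : Subgroup.closure (((↑) : X → A × B) ⁻¹' S) = ⊤ := Subgroup.closure_closure_coe_preimage
    intro x
    have h2 : x ∈ Subgroup.closure (((↑) : X → A × B) ⁻¹' S) := by
      rw [h1]
      trivial
    refine Subgroup.closure_mono ?_ h2
    rintro y ⟨j, hj, hy⟩
    refine ⟨j, hj, ?_⟩
    apply Subtype.ext
    rw [hel j hj]
    exact hy
  have hXcard : Nat.card X ≤ c.N * D := closure_card_le hf hSB hrelX hgenX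
  have hs1 : Function.Surjective p1 := by
    rw [← MonoidHom.range_eq_top, eq_top_iff]
    intro x _
    refine (Subgroup.closure_le _).2 ?_ (hga x)
    rintro _ ⟨j, hj, rfl⟩
    exact ⟨el j, hp1 j hj⟩
  have hs2 : Function.Surjective p2 := by
    rw [← MonoidHom.range_eq_top, eq_top_iff]
    intro x _
    refine (Subgroup.closure_le _).2 ?_ (hgb x)
    rintro _ ⟨j, hj, rfl⟩
    exact ⟨el j, hp2 j hj⟩
  have hb1 : Function.Bijective p1 := hs1.bijective_of_nat_card_le (by rw [hcardA]; exact hXcard)
  have hb2 : Function.Bijective p2 := by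
    rcases hB with h | ⟨hsA, hnB⟩
    · exact hs2.bijective_of_nat_card_le (by rw [h]; exact hXcard)
    · refine ⟨?_, hs2⟩
      let e1 : X ≃* A := MulEquiv.ofBijective p1 hb1
      haveI hsX : IsSimpleGroup X := e1.isSimpleGroup
      rcases (MonoidHom.normal_ker p2).eq_bot_or_eq_top with h | h
      · exact (MonoidHom.ker_eq_bot_iff p2).mp h
      · exfalso
        obtain ⟨y, hy⟩ := exists_ne (1 : B)
        obtain ⟨x, rfl⟩ := hs2 y
        apply hy
        have : x ∈ p2.ker := by
          rw [h]
          trivial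
        exact this
  refine ⟨(MulEquiv.ofBijective p2 hb2).symm.trans (MulEquiv.ofBijective p1 hb1), ?_⟩
  intro j hj
  have h1 : (MulEquiv.ofBijective p2 hb2).symm (gb j) = el j := by
    rw [MulEquiv.symm_apply_eq]
    exact (hp2 j hj).symm
  show (MulEquiv.ofBijective p1 hb1) ((MulEquiv.ofBijective p2 hb2).symm (gb j)) = _
  rw [h1]
  exact hp1 j hj

end Cfsg.Agent.Lib.Compute.Schur2
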